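import Cfsg.Agent.Lib.H10.NHN.Net
set_option autoImplicit false
set_option maxRecDepth 100000
set_option linter.all false
set_option Elab.async false
namespace H10.NHN
open H35.TC H35.Net
open H10.HNAlt (Lt)
theorem w19_0 : chkW net 21 [.X, .t, .Y, .z, .y, .y] 19 0 1 = true := by decide +kernel
theorem w19_1 : chkW net 21 [.X, .t, .Y, .z, .y, .y] 19 1 1 = true := by decide +kernel
theorem w19_2 : chkW net 21 [.X, .t, .Y, .z, .y, .y] 19 2 1 = true := by decide +kernel
theorem w19_3 : chkW net 21 [.X, .t, .Y, .z, .y, .y] 19 3 1 = true := by decide +kernel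
theorem w19_4 : chkW net 21 [.X, .t, .Y, .z, .y, .y] 19 4 1 = true := by decide +kernel
theorem w19_5 : chkW net 21 [.X, .t, .Y, .z, .y, .y] 19 5 1 = true := by decide +kernel
theorem w19_6 : chkW net 21 [.X, .t, .Y, .z, .y, .y] 19 6 1 = true := by decide +kernel
theorem w19_7 : chkW net 21 [.X, .t, .Y, .z, .y, .y] 19 7 1 = true := by decide +kernel
theorem w19_8 : chkW net 21 [.X, .t, .Y, .z, .y, .y] 19 8 1 = true := by decide +kernel
theorem w19_9 : chkW net 21 [.X, .t, .Y, .z, .y, .y] 19 9 1 = true := by decide +kernel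
theorem w19_10 : chkW net 21 [.X, .t, .Y, .z, .y, .y] 19 10 1 = true := by decide +kernel
theorem w19_11 : chkW net 21 [.X, .t, .Y, .z, .y, .y] 19 11 1 = true := by decide +kernel
theorem w19_12 : chkW net 21 [.X, .t, .Y, .z, .y, .y] 19 12 1 = true := by decide +kernel
theorem w19_13 : chkW net 21 [.X, .t, .Y, .z, .y, .y] 19 13 1 = true := by decide +kernel
theorem w19_14 : chkW net 21 [.X, .t, .Y, .z, .y, .y] 19 14 1 = true := by decide +kernel
theorem w19_15 : chkW net 21 [.X, .t, .Y, .z, .y, .y] 19 15 1 = true := by decide +kernel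
theorem w19_16 : chkW net 21 [.X, .t, .Y, .z, .y, .y] 19 16 1 = true := by decide +kernel
theorem w19_17 : chkW net 21 [.X, .t, .Y, .z, .y, .y] 19 17 1 = true := by decide +kernel
theorem w19_18 : chkW net 21 [.X, .t, .Y, .z, .y, .y] 19 18 1 = true := by decide +kernel
theorem w19_19 : chkW net 21 [.X, .t, .Y, .z, .y, .y] 19 19 1 = true := by decide +kernel
theorem w19_20 : chkW net 21 [.X, .t, .Y, .z, .y, .y] 19 20 1 = true := by decide +kernel
theorem w19 : ((([.X, .t, .Y, .z, .y, .y] : List Lt).map π).prod) ^ 19 = 1 := by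
  refine pow_eq_one hbp (k := 21) fun r hr => ?_
  rcases Nat.lt_or_ge r 1 with h0 | h0
  · exact chkW_spec w19_0 r (by omega) (by omega)
  rcases Nat.lt_or_ge r 2 with h1 | h1
  · exact chkW_spec w19_1 r (by omega) (by omega)
  rcases Nat.lt_or_ge r 3 with h2 | h2
  · exact chkW_spec w19_2 r (by omega) (by omega)
  rcases Nat.lt_or_ge r 4 with h3 | h3
  · exact chkW_spec w19_3 r (by omega) (by omega)
  rcases Nat.lt_or_ge r 5 with h4 | h4
  · exact chkW_spec w19_4 r (by omega) (by omega)
  rcases Nat.lt_or_ge r 6 with h5 | h5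
  · exact chkW_spec w19_5 r (by omega) (by omega)
  rcases Nat.lt_or_ge r 7 with h6 | h6
  · exact chkW_spec w19_6 r (by omega) (by omega)
  rcases Nat.lt_or_ge r 8 with h7 | h7
  · exact chkW_spec w19_7 r (by omega) (by omega)
  rcases Nat.lt_or_ge r 9 with h8 | h8
  · exact chkW_spec w19_8 r (by omega) (by omega)
  rcases Nat.lt_or_ge r 10 with h9 | h9
  · exact chkW_spec w19_9 r (by omega) (by omega)
  rcases Nat.lt_or_ge r 11 with h10 | h10
  · exact chkW_spec w19_10 r (by omega) (by omega)
  rcases Nat.lt_or_ge r 12 with h11 | h11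
  · exact chkW_spec w19_11 r (by omega) (by omega)
  rcases Nat.lt_or_ge r 13 with h12 | h12
  · exact chkW_spec w19_12 r (by omega) (by omega)
  rcases Nat.lt_or_ge r 14 with h13 | h13
  · exact chkW_spec w19_13 r (by omega) (by omega)
  rcases Nat.lt_or_ge r 15 with h14 | h14
  · exact chkW_spec w19_14 r (by omega) (by omega)
  rcases Nat.lt_or_ge r 16 with h15 | h15
  · exact chkW_spec w19_15 r (by omega) (by omega)
  rcases Nat.lt_or_ge r 17 with h16 | h16
  · exact chkW_spec w19_16 r (by omega) (by omega)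
  rcases Nat.lt_or_ge r 18 with h17 | h17
  · exact chkW_spec w19_17 r (by omega) (by omega)
  rcases Nat.lt_or_ge r 19 with h18 | h18
  · exact chkW_spec w19_18 r (by omega) (by omega)
  rcases Nat.lt_or_ge r 20 with h19 | h19
  · exact chkW_spec w19_19 r (by omega) (by omega)
  exact chkW_spec w19_20 r (by omega) (by omega)
end H10.NHN
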